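import Mathlib
import Cfsg.Agent.H4.TnDefs
import Cfsg.Agent.Lib.Helper30.Generation

/-!
# TN-FPF (helper58, parallel take for helper4's S3805 project)

A noncyclic group of order 9 and exponent 3 cannot act fixed-point-freely on a 3'-group:
direct from generation by centralisers (`Cfsg.Agent.Lib.Helper30.genCent_eq`, the engine of S0058).
-/

set_option autoImplicit false

namespace Cfsg.Agent.H58.Tn

open Subgroup

universe u

theorem fpf : Cfsg.Agent.H4.Tn.StFpf.{u} := by
  intro G _ _ Q T hTN hcop hT9 hexp hcomm hfpf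
  have : IsMulCommutative T := ⟨⟨fun x y => Subtype.ext (hcomm x x.2 y y.2)⟩⟩
  have hnc : ¬ IsCyclic T := by
    intro hc
    obtain ⟨g, hg⟩ := hc.exists_generator
    have h9 : orderOf g = Nat.card T := orderOf_eq_card_of_forall_mem_zpowers hg
    have h3 : g ^ 3 = 1 := Subtype.ext (by simpa using hexp g g.2)
    have hd := orderOf_dvd_of_pow_eq_one h3
    rw [h9, hT9] at hd
    omega
  have hcop' : (Nat.card T).Coprime (Nat.card Q) := by
    rw [hT9]
    have : Nat.Coprime (3 ^ 2) (Nat.card Q) := Nat.Coprime.pow_left 2 hcop.symm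
    simpa using this
  have h := Cfsg.Agent.Lib.Helper30.genCent_eq hnc (Nat.card Q) Q rfl hTN hcop'
  rw [← h, eq_bot_iff]
  refine iSup₂_le ?_
  intro a ha q hq
  obtain ⟨hqQ, hqc⟩ := hq
  have hqc' : q ∈ centralizer ({a} : Set G) := hqc
  rw [mem_centralizer_iff] at hqc'
  have hq1 := hfpf q hqQ a ha.1 ha.2 (hqc' a rfl)
  rw [hq1]
  exact Subgroup.one_mem _

example : Cfsg.Agent.H4.Tn.StFpf.{u} := fpf

end Cfsg.Agent.H58.Tn
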