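import Mathlib
import Cfsg.Agent.H34.J3FDefs

/-!
helper58: piece S5322-CL for helper34 (a nontrivial strongly closed subgroup of `P` is `P`).
-/

set_option autoImplicit false

namespace Cfsg.Agent.H58.J3F

open Cfsg.Agent.H34.J3F

universe u

theorem cl : Cfsg.Agent.H34.J3F.StCl.{u} := by
  intro J _ _ D hcard T hTP hT hcl
  have hTcard : Nat.card T ∣ 2 ^ 7 := by
    have h128 : (2 : ℕ) ^ 7 = 128 := by norm_num
    rw [h128, ← hcard]
    exact Subgroup.card_dvd_of_le hTP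
  have hT1 : Nat.card T ≠ 1 := by
    intro h
    exact hT ((Subgroup.card_eq_one).1 h)
  have h2 : 2 ∣ Nat.card T := by
    obtain ⟨k, hk, hkeq⟩ := (Nat.dvd_prime_pow Nat.prime_two).1 hTcard
    rw [hkeq]
    rcases Nat.eq_zero_or_pos k with hk0 | hk0
    · exfalso
      rw [hk0, pow_zero] at hkeq
      exact hT1 hkeq
    · exact dvd_pow_self 2 (Nat.pos_iff_ne_zero.1 hk0)
  have : Fact (Nat.Prime 2) := ⟨Nat.prime_two⟩
  obtain ⟨x, hx⟩ := exists_prime_orderOf_dvd_card' (G := T) 2 h2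
  have hxx : (x : J) * (x : J) = 1 := by
    have h3 : x ^ 2 = 1 := by rw [← hx]; exact pow_orderOf_eq_one x
    have h4 : ((x ^ 2 : T) : J) = 1 := by rw [h3]; rfl
    rw [← pow_two]
    exact_mod_cast h4
  have hx1 : (x : J) ≠ 1 := by
    intro h
    have h5 : x = 1 := Subtype.ext h
    rw [h5, orderOf_one] at hx
    exact absurd hx (by norm_num)
  obtain ⟨u, hu⟩ := D.hconj (x : J) hxx hx1
  -- every involution of P lies in T
  have hinv : ∀ y ∈ D.P, y * y = 1 → y ∈ T := by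
    intro y hy hyy
    by_cases hy1 : y = 1
    · rw [hy1]; exact one_mem T
    · obtain ⟨w, hw⟩ := D.hconj y hyy hy1
      have h6 : (w * u⁻¹) * (x : J) * (w * u⁻¹)⁻¹ = y := by
        rw [← hu, ← hw]
        group
      have h7 := hcl (x : J) x.2 (w * u⁻¹) (by rw [h6]; exact hy)
      rw [h6] at h7
      exact h7
  have hq : ∀ a, D.eq a ∈ T := by
    intro a
    obtain ⟨a1, a2, h1, h2', h3⟩ := D.T1 a
    have key : ∀ c, D.qm c c = 0 → D.eq c ∈ T := by
      intro c hc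
      apply hinv
      · exact ⟨c, 0, D.hV0, by rw [D.hh0, mul_one]⟩
      · rw [D.hqm, hc, D.hq0]
    have : D.eq a = D.eq a1 * D.eq a2 := by rw [D.hqm, h3]
    rw [this]
    exact mul_mem (key a1 h1) (key a2 h2')
  have hv : ∀ v ∈ D.V, D.eh v ∈ T := by
    intro v hv
    apply hinv
    · exact ⟨0, v, hv, by rw [D.hq0, one_mul]⟩
    · rw [D.hhm, D.hV2 v hv, D.hh0]
  apply le_antisymm hTP
  intro y hy
  obtain ⟨a, v, hvV, rfl⟩ := hy
  exact mul_mem (hq a) (hv v hvV)

example : Cfsg.Agent.H34.J3F.StCl.{u} := cl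

end Cfsg.Agent.H58.J3F
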