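import Mathlib
import Cfsg.Agent.H34.J3FDefs

/-!
helper58: piece S5322-EQ for helper34 (`Q ≤ P ≤ N(Q)`, `C(Q) ≤ Q`).
-/

set_option autoImplicit false

namespace Cfsg.Agent.H58.J3F

open Cfsg.Agent.H34.J3F

universe u

theorem eQ : Cfsg.Agent.H34.J3F.StEQ.{u} := by
  intro J _ D
  refine ⟨?_, ?_, ?_⟩
  · intro x hx
    obtain ⟨a, rfl⟩ := (D.mem_Q x).1 hx
    exact ⟨a, 0, D.hV0, by rw [D.hh0, mul_one]⟩
  · intro x hx
    obtain ⟨a, v, hv, rfl⟩ := hx
    have h1 : D.eq a ∈ Subgroup.normalizer (D.Q : Set J) :=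
      Subgroup.le_normalizer ((D.mem_Q _).2 ⟨a, rfl⟩)
    have hvv : D.eh v * D.eh v = 1 := by rw [D.hhm, D.hV2 v hv, D.hh0]
    have hinv : (D.eh v)⁻¹ = D.eh v := inv_eq_of_mul_eq_one_right hvv
    have hfw : ∀ h : J, h ∈ D.Q → D.eh v * h * (D.eh v)⁻¹ ∈ D.Q := by
      intro h hh
      obtain ⟨a', rfl⟩ := (D.mem_Q h).1 hh
      refine (D.mem_Q _).2 ⟨D.act v a', ?_⟩
      rw [D.hact, mul_assoc, mul_inv_cancel, mul_one]
    have h2 : D.eh v ∈ Subgroup.normalizer (D.Q : Set J) := by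
      rw [Subgroup.mem_set_normalizer_iff]
      intro h
      constructor
      · intro hh
        exact hfw h hh
      · intro hh
        have h3 := hfw _ hh
        have h4 : D.eh v * (D.eh v * h * (D.eh v)⁻¹) * (D.eh v)⁻¹ = h := by
          rw [hinv]
          calc D.eh v * (D.eh v * h * D.eh v) * D.eh v
              = (D.eh v * D.eh v) * h * (D.eh v * D.eh v) := by simp only [mul_assoc]
            _ = h := by rw [hvv, one_mul, mul_one]
        rw [h4] at h3
        exact h3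
    exact mul_mem h1 h2
  · intro c hc
    rw [Subgroup.mem_centralizer_iff] at hc
    have hc1 : c * D.eq 1 = D.eq 1 * c := (hc _ ((D.mem_Q _).2 ⟨1, rfl⟩)).symm
    obtain ⟨a, b, rfl⟩ := D.hcent c hc1
    have hb : b = 0 := by
      apply D.T2 a b
      intro a'
      have h5 := hc _ ((D.mem_Q _).2 ⟨a', rfl⟩)
      -- eq a' * (eq a * eh b) = eq a * eh b * eq a'
      have h6 : D.eq a' * (D.eq a * D.eh b) = D.eq (D.qm a' a) * D.eh b := by
        rw [← mul_assoc, D.hqm]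
      have h7 : D.eq a * D.eh b * D.eq a' = D.eq (D.qm a (D.act b a')) * D.eh b := by
        rw [mul_assoc, D.hact, ← mul_assoc, D.hqm]
      rw [h6, h7] at h5
      exact (D.hqi (mul_right_cancel h5)).symm
    subst hb
    refine (D.mem_Q _).2 ⟨a, ?_⟩
    rw [D.hh0, mul_one]

example : Cfsg.Agent.H34.J3F.StEQ.{u} := eQ

end Cfsg.Agent.H58.J3F
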