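import Mathlib
import Cfsg.Agent.H34.J3FDefs

/-!
helper58: piece S5322-NP for helper34 (`N(P) ≤ C(t)`).
-/

set_option autoImplicit false

namespace Cfsg.Agent.H58.J3F

open Cfsg.Agent.H34.J3F

universe u

theorem nP : Cfsg.Agent.H34.J3F.StNP.{u} := by
  intro J _ D g hg
  rw [Subgroup.mem_set_normalizer_iff] at hg
  -- P ≤ C(t)
  have hPc : ∀ x ∈ D.P, x * D.eq 1 = D.eq 1 * x := by
    intro x hx
    obtain ⟨a, v, hv, rfl⟩ := hx
    have h1 : D.eh v * D.eq 1 = D.eq 1 * D.eh v := by rw [D.hact, D.T6]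
    have h2 : D.eq a * D.eq 1 = D.eq 1 * D.eq a := by rw [D.hqm, D.hqm, D.T7]
    rw [mul_assoc, h1, ← mul_assoc, h2, mul_assoc]
  have htP : D.eq 1 ∈ D.P := ⟨1, 0, D.hV0, by rw [D.hh0, mul_one]⟩
  have hsP : g * D.eq 1 * g⁻¹ ∈ D.P := (hg _).1 htP
  -- s commutes with every x ∈ P
  have hsc : ∀ x ∈ D.P, (g * D.eq 1 * g⁻¹) * x = x * (g * D.eq 1 * g⁻¹) := by
    intro x hx
    have hx' : g⁻¹ * x * g ∈ D.P := by
      apply (hg _).2
      have : g * (g⁻¹ * x * g) * g⁻¹ = x := by group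
      rw [this]
      exact hx
    have h3 := hPc _ hx'
    calc (g * D.eq 1 * g⁻¹) * x = g * (D.eq 1 * (g⁻¹ * x * g)) * g⁻¹ := by group
      _ = g * ((g⁻¹ * x * g) * D.eq 1) * g⁻¹ := by rw [h3]
      _ = x * (g * D.eq 1 * g⁻¹) := by group
  obtain ⟨a, v, hv, hs⟩ := hsP
  have hv0 : v = 0 := by
    apply D.T2 a v
    intro a'
    have h4 := hsc (D.eq a') ⟨a', 0, D.hV0, by rw [D.hh0, mul_one]⟩
    rw [hs] at h4
    have h6 : D.eq a' * (D.eq a * D.eh v) = D.eq (D.qm a' a) * D.eh v := by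
      rw [← mul_assoc, D.hqm]
    have h7 : D.eq a * D.eh v * D.eq a' = D.eq (D.qm a (D.act v a')) * D.eh v := by
      rw [mul_assoc, D.hact, ← mul_assoc, D.hqm]
    rw [h6, h7] at h4
    exact D.hqi (mul_right_cancel h4)
  subst hv0
  rw [D.hh0, mul_one] at hs
  have ha : a = 0 ∨ a = 1 := by
    apply D.T3 a
    intro a'
    have h4 := hsc (D.eq a') ⟨a', 0, D.hV0, by rw [D.hh0, mul_one]⟩
    rw [hs, D.hqm, D.hqm] at h4
    exact (D.hqi h4).symm
  rcases ha with ha | ha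
  · exfalso
    subst ha
    rw [D.hq0] at hs
    have h8 : D.eq 1 = 1 := by
      have : D.eq 1 = g⁻¹ * (g * D.eq 1 * g⁻¹) * g := by group
      rw [this, hs]
      group
    have h9 : (1 : Fin 32) = 0 := D.hqi (by rw [h8, D.hq0])
    exact absurd h9 (by decide)
  · subst ha
    calc g * D.eq 1 = (g * D.eq 1 * g⁻¹) * g := by group
      _ = D.eq 1 * g := by rw [hs]

example : Cfsg.Agent.H34.J3F.StNP.{u} := nP

end Cfsg.Agent.H58.J3F
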