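import Mathlib
import Cfsg.Prelude.Def_Local
import Cfsg.Agent.H27.Comp
import Cfsg.Agent.H60.Cores
import Cfsg.Agent.S1324
import Cfsg.Agent.H58.Std

set_option autoImplicit false

namespace Cfsg.Agent.H58

open scoped commutatorElement

/-- Element-level analysis of the fusion hypothesis in a standard-form situation. -/
theorem std_elements {X : Type*} [Group X] [Finite X] (P : Subgroup X)
    (hNK : Subgroup.normalizer (P : Set X) =
      Subgroup.normalizer (Subgroup.centralizer (P : Set X) : Set X))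
    (hTight : ∀ c : X, ∀ r ∈ Subgroup.centralizer (P : Set X), r ^ 2 = 1 → r ≠ 1 →
      c⁻¹ * r * c ∈ Subgroup.centralizer (P : Set X) → c ∈ Subgroup.normalizer (P : Set X))
    (hr : Cfsg.PRankLE 2 1 ↥(Subgroup.centralizer (P : Set X)))
    (hZ : Odd (Nat.card ↥(Subgroup.center ↥P)))
    (S' : Subgroup X) (hS'N : S' ≤ Subgroup.normalizer (P : Set X)) (hS'2 : IsPGroup 2 ↥S')
    (t : X) (ht2 : t ^ 2 = 1) (ht1 : t ≠ 1) (htS : t ∈ S')
    (htK : t ∈ Subgroup.centralizer (P : Set X))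
    (g : X) (hgS : ∀ s ∈ S', g * s * g⁻¹ ∈ S') (hgN : g ∉ Subgroup.normalizer (P : Set X))
    (hg2 : g ^ 2 ∈ S') (hgt : g * t * g⁻¹ ∈ P ⊔ Subgroup.centralizer (P : Set X)) :
    ∃ p ∈ P, p ^ 2 = 1 ∧ p ≠ 1 ∧ (g * t * g⁻¹ = p ∨ g * t * g⁻¹ = p * t) ∧
      t * (g * t * g⁻¹) = g * t * g⁻¹ * t ∧ g * (g * t * g⁻¹) * g⁻¹ = t ∧
      (¬ ∀ y ∈ P, y * p = p * y) := by
  classical
  have : Fact (Nat.Prime 2) := ⟨Nat.prime_two⟩
  have hPK : ∀ p ∈ P, ∀ k ∈ Subgroup.centralizer (P : Set X), p * k = k * p := fun p hp k hk =>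
    Subgroup.mem_centralizer_iff.mp hk p hp
  have hS'K : ∀ s ∈ S', ∀ k ∈ Subgroup.centralizer (P : Set X),
      s * k * s⁻¹ ∈ Subgroup.centralizer (P : Set X) := by
    intro s hs k hk
    have h1 : s ∈ Subgroup.normalizer (Subgroup.centralizer (P : Set X) : Set X) :=
      hNK ▸ hS'N hs
    exact (Subgroup.mem_normalizer_iff.mp h1 k).mp hk
  have hRp : IsPGroup 2 ↥(S' ⊓ Subgroup.centralizer (P : Set X)) := hS'2.to_le inf_le_left
  obtain ⟨z, hzR, hz2, hz1, hzc⟩ :=
    exists_central_invol (S' ⊓ Subgroup.centralizer (P : Set X)) hRp (t := t) ⟨htS, htK⟩ ht1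
  have htz : t = z := by
    rcases invol_eq_of_pRankLE' _ hr hzR.2 htK hz2 ht2 (hzc t ⟨htS, htK⟩).symm hz1 with h | h
    · exact absurd h ht1
    · exact h
  subst htz
  have htc : ∀ s ∈ S', s * t = t * s := by
    intro s hs
    have h1 : s * t * s⁻¹ ∈ S' ⊓ Subgroup.centralizer (P : Set X) :=
      ⟨S'.mul_mem (S'.mul_mem hs htS) (S'.inv_mem hs), hS'K s hs t htK⟩
    have h2 : (s * t * s⁻¹) ^ 2 = 1 := by rw [conj_pow, ht2]; group
    have h3 : t * (s * t * s⁻¹) = (s * t * s⁻¹) * t := (hzc _ h1).symm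
    rcases invol_eq_of_pRankLE' _ hr htK h1.2 ht2 h2 h3 ht1 with h | h
    · exfalso; apply ht1
      have : t = s⁻¹ * (s * t * s⁻¹) * s := by group
      rw [this, h]; group
    · calc s * t = (s * t * s⁻¹) * s := by group
        _ = t * s := by rw [h]
  have huS : g * t * g⁻¹ ∈ S' := hgS t htS
  have hu2 : (g * t * g⁻¹) ^ 2 = 1 := by rw [conj_pow, ht2]; group
  have hu1 : g * t * g⁻¹ ≠ 1 := by
    intro h
    apply ht1
    have : t = g⁻¹ * (g * t * g⁻¹) * g := by group
    rw [this, h]; group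
  have huK : g * t * g⁻¹ ∉ Subgroup.centralizer (P : Set X) := by
    intro h
    apply hgN
    have h1 := hTight g⁻¹ t htK ht2 ht1 (by simpa using h)
    have := Subgroup.inv_mem _ h1
    simpa using this
  have htu : t * (g * t * g⁻¹) = (g * t * g⁻¹) * t := (htc _ huS).symm
  have hgu : g * (g * t * g⁻¹) * g⁻¹ = t := by
    have h1 := htc (g ^ 2) hg2
    have : g * (g * t * g⁻¹) * g⁻¹ = g ^ 2 * t * (g ^ 2)⁻¹ := by rw [pow_two]; group
    rw [this, h1]; group
  obtain ⟨p, hp, k, hk, hupk⟩ := mem_sup_of_commute P _ hPK hgt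
  have hpk := hPK p hp k hk
  have hsq : p ^ 2 * k ^ 2 = 1 := by
    rw [← (show Commute p k from hpk).mul_pow, ← hupk]; exact hu2
  have hzK : p ^ 2 ∈ Subgroup.centralizer (P : Set X) := by
    have : p ^ 2 = (k ^ 2)⁻¹ := eq_inv_of_mul_eq_one_left hsq
    rw [this]; exact Subgroup.inv_mem _ (Subgroup.pow_mem _ hk 2)
  have hzP : p ^ 2 ∈ P := P.pow_mem hp 2
  have hzc' : (⟨p ^ 2, hzP⟩ : P) ∈ Subgroup.center ↥P := by
    rw [Subgroup.mem_center_iff]
    intro y
    exact Subtype.ext (hPK y y.2 _ hzK)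
  obtain ⟨n, hn⟩ := hZ
  have hzm : (p ^ 2) ^ (2 * n + 1) = 1 := by
    have h1 : (⟨⟨p ^ 2, hzP⟩, hzc'⟩ : Subgroup.center ↥P) ^ Nat.card ↥(Subgroup.center ↥P) = 1 :=
      pow_card_eq_one'
    rw [hn] at h1
    have h2 := congrArg (fun x : ↥(Subgroup.center ↥P) => (x.1.1 : X)) h1
    simpa using h2
  have hp₁P : p * (p ^ 2) ^ n ∈ P := P.mul_mem hp (P.pow_mem hzP n)
  have hk₁K : ((p ^ 2) ^ n)⁻¹ * k ∈ Subgroup.centralizer (P : Set X) :=
    Subgroup.mul_mem _ (Subgroup.inv_mem _ (Subgroup.pow_mem _ hzK n)) hk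
  generalize hp₁ : p * (p ^ 2) ^ n = p₁ at hp₁P
  generalize hk₁ : ((p ^ 2) ^ n)⁻¹ * k = k₁ at hk₁K
  have hup₁ : g * t * g⁻¹ = p₁ * k₁ := by rw [hupk, ← hp₁, ← hk₁]; group
  have hp₁2 : p₁ ^ 2 = 1 := by
    have : p₁ = p ^ (2 * n + 1) := by rw [← hp₁, ← pow_mul, pow_succ']
    rw [this, ← pow_mul, mul_comm, pow_mul]; exact hzm
  have hpk₁ := hPK p₁ hp₁P k₁ hk₁K
  have hk₁2 : k₁ ^ 2 = 1 := by
    have : p₁ ^ 2 * k₁ ^ 2 = 1 := by
      rw [← (show Commute p₁ k₁ from hpk₁).mul_pow, ← hup₁]; exact hu2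
    rwa [hp₁2, one_mul] at this
  have htp₁ : p₁ * t = t * p₁ := hPK p₁ hp₁P t htK
  have htk₁ : t * k₁ = k₁ * t := by
    have h1 : p₁ * (t * k₁) = p₁ * (k₁ * t) := by
      calc p₁ * (t * k₁) = t * (p₁ * k₁) := by rw [← mul_assoc, htp₁, mul_assoc]
        _ = t * (g * t * g⁻¹) := by rw [hup₁]
        _ = (g * t * g⁻¹) * t := htu
        _ = p₁ * (k₁ * t) := by rw [hup₁, mul_assoc]
    exact mul_left_cancel h1
  have hk₁c : k₁ = 1 ∨ k₁ = t := invol_eq_of_pRankLE' _ hr htK hk₁K ht2 hk₁2 htk₁ ht1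
  have hcase : g * t * g⁻¹ = p₁ ∨ g * t * g⁻¹ = p₁ * t := by
    rcases hk₁c with h | h
    · left; rw [hup₁, h, mul_one]
    · right; rw [hup₁, h]
  have hp₁1 : p₁ ≠ 1 := by
    intro h
    rcases hcase with h' | h'
    · exact hu1 (h'.trans h)
    · apply huK; rw [h', h, one_mul]; exact htK
  refine ⟨p₁, hp₁P, hp₁2, hp₁1, hcase, htu, hgu, ?_⟩
  intro hcen
  have hc : (⟨p₁, hp₁P⟩ : P) ∈ Subgroup.center ↥P := by
    rw [Subgroup.mem_center_iff]
    intro y
    exact Subtype.ext (hcen y y.2)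
  have ho : orderOf (⟨⟨p₁, hp₁P⟩, hc⟩ : Subgroup.center ↥P) = 2 := by
    apply orderOf_eq_prime
    · exact Subtype.ext (Subtype.ext (by simpa using hp₁2))
    · intro h
      exact hp₁1 (congrArg (fun x : ↥(Subgroup.center ↥P) => (x.1.1 : X)) h)
  have hd := orderOf_dvd_natCard (⟨⟨p₁, hp₁P⟩, hc⟩ : Subgroup.center ↥P)
  rw [ho, hn] at hd
  omega

/-- The core commutes with a standard subgroup in the fusion situation. -/
theorem std_core {X : Type*} [Group X] [Finite X] (P : Subgroup X)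
    (hPq : Cfsg.IsQuasisimple ↥P)
    (hTight : ∀ c : X, ∀ r ∈ Subgroup.centralizer (P : Set X), r ^ 2 = 1 → r ≠ 1 →
      c⁻¹ * r * c ∈ Subgroup.centralizer (P : Set X) → c ∈ Subgroup.normalizer (P : Set X))
    (t : X) (ht2 : t ^ 2 = 1) (ht1 : t ≠ 1) (htK : t ∈ Subgroup.centralizer (P : Set X))
    (g p : X) (hp : p ∈ P) (hp2 : p ^ 2 = 1) (hp1 : p ≠ 1)
    (hcase : g * t * g⁻¹ = p ∨ g * t * g⁻¹ = p * t)
    (htu : t * (g * t * g⁻¹) = g * t * g⁻¹ * t) (hgu : g * (g * t * g⁻¹) * g⁻¹ = t)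
    (hpc : ¬ ∀ y ∈ P, y * p = p * y) :
    ⁅P, Cfsg.oddCore X⁆ = ⊥ := by
  classical
  have : Fact (Nat.Prime 2) := ⟨Nat.prime_two⟩
  have hOn : (Cfsg.oddCore X).Normal := inferInstance
  have hOodd : (Nat.card ↥(Cfsg.oddCore X)).Coprime 2 := Cfsg.Agent.H60.card_pPrimeCore_coprime 2
  generalize hO : Cfsg.oddCore X = O at hOn hOodd ⊢
  have hu2 : (g * t * g⁻¹) ^ 2 = 1 := by rw [conj_pow, ht2]; group
  generalize hu : g * t * g⁻¹ = u at hcase htu hgu hu2
  have hPK : ∀ y ∈ P, ∀ k ∈ Subgroup.centralizer (P : Set X), y * k = k * y := fun y hy k hk =>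
    Subgroup.mem_centralizer_iff.mp hk y hy
  have hperf : ⁅P, P⁆ = P := Subgroup.isPerfect_iff.mp hPq.1
  have hO2 : ¬ 2 ∣ Nat.card ↥O := by
    intro h
    have := Nat.Coprime.eq_one_of_dvd hOodd.symm h
    omega
  have hOinv : ∀ x ∈ O, x ^ 2 = 1 → x = 1 := by
    intro x hx hx2
    by_contra hx1
    have h1 : orderOf x = 2 := orderOf_eq_prime hx2 hx1
    have h2 := O.orderOf_dvd_natCard hx
    rw [h1] at h2
    exact hO2 h2
  have hPO : ¬ P ≤ O := fun h => hp1 (hOinv p (h hp) hp2)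
  have hOP : ∀ x ∈ O, x ∈ P → ∀ q ∈ P, q * x = x * q := by
    rcases quasi_sub (Q := P) (M := O) hPq (fun q _ x hx => hOn.conj_mem x hx q) with h | h
    · exact h
    · exact absurd h hPO
  have hCtN : ∀ c : X, c * t = t * c → c ∈ Subgroup.normalizer (P : Set X) := by
    intro c hc
    apply hTight c t htK ht2 ht1
    have : c⁻¹ * t * c = t := by rw [mul_assoc, ← hc]; group
    rw [this]; exact htK
  -- `C_O(t)` centralizes `P`
  have hD : ⁅P, O ⊓ Subgroup.centralizer ({t} : Set X)⁆ = ⊥ := by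
    have h1 : ⁅O ⊓ Subgroup.centralizer ({t} : Set X), P⁆ ≤ O ⊓ P := by
      rw [Subgroup.commutator_le]
      intro d' hd' y hy
      have hd'N := hCtN d' (Subgroup.mem_centralizer_singleton_iff.mp hd'.2)
      rw [commutatorElement_def]
      refine ⟨?_, ?_⟩
      · have : d' * y * d'⁻¹ * y⁻¹ = d' * (y * d'⁻¹ * y⁻¹) := by group
        rw [this]
        exact O.mul_mem hd'.1 (hOn.conj_mem _ (O.inv_mem hd'.1) y)
      · exact P.mul_mem ((Subgroup.mem_normalizer_iff.mp hd'N y).mp hy) (P.inv_mem hy)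
    have h2 : ⁅⁅O ⊓ Subgroup.centralizer ({t} : Set X), P⁆, P⁆ = ⊥ := by
      rw [eq_bot_iff]
      refine le_trans (Subgroup.commutator_mono h1 le_rfl) ?_
      rw [le_bot_iff]
      apply Cfsg.Agent.H27.comm_eq_bot_of_forall
      intro a ha b hb
      exact (hOP a ha.1 ha.2 b hb).symm
    exact Cfsg.Agent.H27.comm_eq_bot_of_perfect P _ hperf h2
  have hCt : ∀ d ∈ O, d * t = t * d → ∀ y ∈ P, d * y = y * d := by
    intro d hd hdt y hy
    have hdD : d ∈ O ⊓ Subgroup.centralizer ({t} : Set X) :=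
      ⟨hd, Subgroup.mem_centralizer_singleton_iff.mpr hdt⟩
    exact (Cfsg.Agent.H27.comm_of_comm_eq_bot hD hy hdD).symm
  have hpt : p * t = t * p := hPK p hp t htK
  have hCtw : ∀ d ∈ O, d * t = t * d → d * (t * u) = (t * u) * d := by
    intro d hd hdt
    have hdp := hCt d hd hdt p hp
    have hdu : d * u = u * d := by
      rcases hcase with h | h
      · rw [h]; exact hdp
      · rw [h]
        calc d * (p * t) = p * d * t := by rw [← mul_assoc, hdp]
          _ = p * t * d := by rw [mul_assoc, hdt, ← mul_assoc]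
    calc d * (t * u) = t * d * u := by rw [← mul_assoc, hdt]
      _ = (t * u) * d := by rw [mul_assoc, hdu, ← mul_assoc]
  have hgw : g * (t * u) * g⁻¹ = t * u := by
    have h1 : g * (t * u) * g⁻¹ = (g * t * g⁻¹) * (g * u * g⁻¹) := by group
    rw [h1, hgu, hu, htu]
  have hCuw : ∀ d ∈ O, d * u = u * d → d * (t * u) = (t * u) * d := by
    intro d hd hdu
    have hd' : g * d * g⁻¹ ∈ O := hOn.conj_mem d hd g
    have hd't : (g * d * g⁻¹) * t = t * (g * d * g⁻¹) := by
      calc g * d * g⁻¹ * t = g * d * g⁻¹ * (g * u * g⁻¹) := by rw [hgu]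
        _ = g * (d * u) * g⁻¹ := by group
        _ = g * (u * d) * g⁻¹ := by rw [hdu]
        _ = g * u * g⁻¹ * (g * d * g⁻¹) := by group
        _ = t * (g * d * g⁻¹) := by rw [hgu]
    have h1 := hCtw _ hd' hd't
    have h2 : g * (d * (t * u)) * g⁻¹ = g * ((t * u) * d) * g⁻¹ := by
      calc g * (d * (t * u)) * g⁻¹ = (g * d * g⁻¹) * (g * (t * u) * g⁻¹) := by group
        _ = (g * d * g⁻¹) * (t * u) := by rw [hgw]
        _ = (t * u) * (g * d * g⁻¹) := h1
        _ = (g * (t * u) * g⁻¹) * (g * d * g⁻¹) := by rw [hgw]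
        _ = g * ((t * u) * d) * g⁻¹ := by group
    exact mul_left_cancel (mul_right_cancel h2)
  -- the four-group and the generation lemma
  obtain ⟨hAc, hAe, hAcar⟩ := four_group ht2 hu2 htu
  have hu1 : u ≠ 1 := by
    intro h
    apply ht1
    have : t = g * u * g⁻¹ := hgu.symm
    rw [this, h]; group
  have hut : u ≠ t := by
    intro h
    rw [h] at hcase hgu
    -- then `g` centralizes `t`, so `g` normalizes `P`; but then `u = t` gives `p = 1`
    rcases hcase with h' | h'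
    · -- t = p : p is central in P
      apply hpc
      intro y hy
      rw [← h']
      exact hPK y hy t htK
    · apply hp1
      have : p * t = 1 * t := by rw [one_mul]; exact h'.symm
      exact mul_right_cancel this
  have hAcard : 2 ^ 2 ≤ Nat.card ↥(Subgroup.closure ({t, u} : Set X)) := by
    have hsub : ({1, t, u, t * u} : Set X) ⊆ (Subgroup.closure ({t, u} : Set X) : Set X) := by
      rintro x (rfl | rfl | rfl | rfl)
      · exact Subgroup.one_mem _
      · exact Subgroup.subset_closure (by simp)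
      · exact Subgroup.subset_closure (by simp)
      · exact Subgroup.mul_mem _ (Subgroup.subset_closure (by simp))
          (Subgroup.subset_closure (by simp))
    have h4 : ({1, t, u, t * u} : Set X).ncard = 4 := by
      rw [Set.ncard_insert_of_notMem, Set.ncard_insert_of_notMem, Set.ncard_pair]
      · intro h
        apply ht1
        have : 1 * u = t * u := by rw [one_mul]; exact h
        exact (mul_right_cancel this).symm
      · rintro (h | h)
        · exact hut h.symm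
        · apply hu1
          have : t * 1 = t * u := by rw [mul_one]; exact h
          exact (mul_left_cancel this).symm
      · rintro (h | h | h)
        · exact ht1 h.symm
        · exact hu1 h.symm
        · apply hut
          have h5 : t * u = t * t := by rw [← h, ← pow_two, ht2]
          exact mul_left_cancel h5
    calc 2 ^ 2 = ({1, t, u, t * u} : Set X).ncard := by rw [h4]; norm_num
      _ ≤ (Subgroup.closure ({t, u} : Set X) : Set X).ncard :=
        Set.ncard_le_ncard hsub (Set.toFinite _)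
      _ = Nat.card ↥(Subgroup.closure ({t, u} : Set X)) := (Nat.card_coe_set_eq _).symm
  have hgen := Cfsg.Agent.S1324.result 2 (Subgroup.closure ({t, u} : Set X)) O ⟨hAc, hAe⟩
    hAcard hO2 (le_normalizer_of_conj (fun k _ x hx => hOn.conj_mem x hx k))
  have hOw : O ≤ Subgroup.centralizer ({t * u} : Set X) := by
    refine hgen.le.trans (iSup_le ?_)
    rintro ⟨B, hBA, hBi⟩
    have hBne : B ≠ ⊥ := by
      rintro rfl
      rw [Subgroup.relIndex_bot_left] at hBi
      have : (2 : ℕ) ^ 2 = 4 := by norm_num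
      omega
    obtain ⟨⟨b, hbB⟩, hb1⟩ := Subgroup.ne_bot_iff_exists_ne_one.mp hBne
    have hb1' : b ≠ 1 := fun h => hb1 (Subtype.ext h)
    intro d hd
    have hdb : b * d = d * b := Subgroup.mem_centralizer_iff.mp hd.2 b hbB
    rw [Subgroup.mem_centralizer_singleton_iff]
    rcases hAcar b (hBA hbB) with h | h | h | h
    · exact absurd h hb1'
    · rw [h] at hdb; exact hCtw d hd.1 hdb.symm
    · rw [h] at hdb; exact hCuw d hd.1 hdb.symm
    · rw [h] at hdb; exact hdb.symm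
  have hwO : ∀ d ∈ O, d * (t * u) = (t * u) * d := fun d hd =>
    Subgroup.mem_centralizer_singleton_iff.mp (hOw hd)
  have hwcase : t * u = p ∨ t * u = t * p := by
    rcases hcase with h | h
    · right; rw [h]
    · left; rw [h, ← mul_assoc, ← hpt, mul_assoc, ← pow_two, ht2, mul_one]
  have hCnorm : (Subgroup.centralizer (O : Set X)).Normal := inferInstance
  have hwC : t * u ∈ Subgroup.centralizer (O : Set X) := by
    rw [Subgroup.mem_centralizer_iff]; intro d hd; exact hwO d hd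
  rcases quasi_sub (Q := P) (M := Subgroup.centralizer (O : Set X)) hPq
    (fun q _ x hx => hCnorm.conj_mem x hx q) with h | h
  · exfalso
    apply hpc
    apply central_of_comm_central hPq.1 hp
    intro y hy q hq
    apply h _ ?_ ?_ q hq
    · have hconj : y * (t * u) * y⁻¹ ∈ Subgroup.centralizer (O : Set X) :=
        hCnorm.conj_mem _ hwC y
      have e : p⁻¹ * y * p * y⁻¹ = (t * u)⁻¹ * (y * (t * u) * y⁻¹) := by
        rcases hwcase with h' | h'
        · rw [h']; group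
        · rw [h']
          have hyt : y * t = t * y := hPK y hy t htK
          calc p⁻¹ * y * p * y⁻¹ = p⁻¹ * t⁻¹ * (t * y) * p * y⁻¹ := by group
            _ = p⁻¹ * t⁻¹ * (y * t) * p * y⁻¹ := by rw [hyt]
            _ = (t * p)⁻¹ * (y * (t * p) * y⁻¹) := by group
      rw [e]
      exact Subgroup.mul_mem _ (Subgroup.inv_mem _ hwC) hconj
    · exact P.mul_mem (P.mul_mem (P.mul_mem (P.inv_mem hp) hy) hp) (P.inv_mem hy)
  · rw [Subgroup.commutator_eq_bot_iff_le_centralizer]; exact h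

/-- A 2-component containing a quasisimple subgroup of even order which commutes with the core
is quasisimple. -/
theorem std_component {X : Type*} [Group X] [Finite X] (P : Subgroup X)
    (hPq : Cfsg.IsQuasisimple ↥P) (hPO : ⁅P, Cfsg.oddCore X⁆ = ⊥)
    (p : X) (hp : p ∈ P) (hp2 : p ^ 2 = 1) (hp1 : p ≠ 1)
    (L : Subgroup X) (hL : Cfsg.IsPComponent 2 L) (hPL : P ≤ L) : Cfsg.IsQuasisimple ↥L := by
  classical
  have hOn : (Cfsg.oddCore X).Normal := inferInstance
  have hOodd : (Nat.card ↥(Cfsg.oddCore X)).Coprime 2 := Cfsg.Agent.H60.card_pPrimeCore_coprime 2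
  obtain ⟨hLsub, hLcomp, hLmin⟩ := hL
  have hO2 : ¬ 2 ∣ Nat.card ↥(Cfsg.oddCore X) := by
    intro h
    have := Nat.Coprime.eq_one_of_dvd hOodd.symm h
    omega
  have hOinv : ∀ x ∈ Cfsg.oddCore X, x ^ 2 = 1 → x = 1 := by
    intro x hx hx2
    by_contra hx1
    have h1 : orderOf x = 2 := orderOf_eq_prime hx2 hx1
    have h2 := (Cfsg.oddCore X).orderOf_dvd_natCard hx
    rw [h1] at h2
    exact hO2 h2
  have hPnO : ¬ P ≤ Cfsg.oddCore X := fun h => hp1 (hOinv p (h hp) hp2)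
  have hperfP : ⁅P, P⁆ = P := Subgroup.isPerfect_iff.mp hPq.1
  have hker : ∀ x : X, QuotientGroup.mk' (Cfsg.pPrimeCore 2 X) x = 1 ↔ x ∈ Cfsg.oddCore X :=
    fun x => QuotientGroup.eq_one_iff x
  have hLbar := hLcomp.2
  have hLperfbar := Cfsg.Agent.H27.isComponent_perfect hLcomp
  -- `L` is perfect
  have hLperf : ⁅L, L⁆ = L := by
    apply hLmin
    · have : (⁅L, L⁆.subgroupOf L).Normal :=
        (Subgroup.normal_subgroupOf_iff_le_normalizer (Cfsg.Agent.H27.commutator_self_le L)).mpr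
          (Cfsg.Agent.H27.le_normalizer_commutator_self L)
      exact Subgroup.IsSubnormal.trans (Cfsg.Agent.H27.commutator_self_le L)
        (Subgroup.Normal.isSubnormal this) hLsub
    · exact Cfsg.Agent.H27.commutator_self_le L
    · rw [Subgroup.map_commutator]; exact hLperfbar
  -- subgroups of `L` normalized by `L`
  have key : ∀ W : Subgroup X, W ≤ L → (∀ l ∈ L, ∀ x ∈ W, l * x * l⁻¹ ∈ W) →
      W = L ∨ ∀ x ∈ W, ∀ l ∈ L, ⁅x, l⁆ ∈ Cfsg.oddCore X := by
    intro W hWL hWn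
    have hsub : W.IsSubnormal := by
      have : (W.subgroupOf L).Normal :=
        (Subgroup.normal_subgroupOf_iff_le_normalizer hWL).mpr (le_normalizer_of_conj hWn)
      exact Subgroup.IsSubnormal.trans hWL (Subgroup.Normal.isSubnormal this) hLsub
    have hn : ∀ q ∈ L.map (QuotientGroup.mk' (Cfsg.pPrimeCore 2 X)),
        ∀ x ∈ W.map (QuotientGroup.mk' (Cfsg.pPrimeCore 2 X)),
        q * x * q⁻¹ ∈ W.map (QuotientGroup.mk' (Cfsg.pPrimeCore 2 X)) := by
      rintro _ ⟨l, hl, rfl⟩ _ ⟨x, hx, rfl⟩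
      exact ⟨l * x * l⁻¹, hWn l hl x hx, by simp⟩
    rcases quasi_sub hLbar hn with h | h
    · right
      intro x hx l hl
      rw [← hker, map_commutatorElement, commutatorElement_eq_one_iff_mul_comm]
      exact (h _ ⟨x, hx, rfl⟩ ⟨x, hWL hx, rfl⟩ _ ⟨l, hl, rfl⟩).symm
    · left
      exact hLmin W hsub hWL (le_antisymm (Subgroup.map_mono hWL) h)
  -- `L ∩ O` is central in `L`
  have hLO : ∀ a ∈ L ⊓ Cfsg.oddCore X, ∀ l ∈ L, l * a = a * l := by
    have hCn : ∀ l ∈ L, ∀ x ∈ L ⊓ Subgroup.centralizer ((L ⊓ Cfsg.oddCore X : Subgroup X) : Set X),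
        l * x * l⁻¹ ∈ L ⊓ Subgroup.centralizer ((L ⊓ Cfsg.oddCore X : Subgroup X) : Set X) := by
      intro l hl x hx
      refine Subgroup.mem_inf.mpr ⟨L.mul_mem (L.mul_mem hl hx.1) (L.inv_mem hl), ?_⟩
      rw [Subgroup.mem_centralizer_iff]
      intro a ha
      have ha' : l⁻¹ * a * l ∈ L ⊓ Cfsg.oddCore X :=
        ⟨L.mul_mem (L.mul_mem (L.inv_mem hl) ha.1) hl, by
          have := hOn.conj_mem a ha.2 l⁻¹; simpa using this⟩
      have h1 := Subgroup.mem_centralizer_iff.mp hx.2 _ ha'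
      calc a * (l * x * l⁻¹) = l * ((l⁻¹ * a * l) * x) * l⁻¹ := by group
        _ = l * (x * (l⁻¹ * a * l)) * l⁻¹ := by rw [h1]
        _ = l * x * l⁻¹ * a := by group
    have hPC : P ≤ L ⊓ Subgroup.centralizer ((L ⊓ Cfsg.oddCore X : Subgroup X) : Set X) := by
      intro y hy
      refine Subgroup.mem_inf.mpr ⟨hPL hy, ?_⟩
      rw [Subgroup.mem_centralizer_iff]
      intro a ha
      exact (Cfsg.Agent.H27.comm_of_comm_eq_bot hPO hy ha.2).symm
    rcases key _ inf_le_left hCn with h | h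
    · intro a ha l hl
      have hl' : l ∈ L ⊓ Subgroup.centralizer ((L ⊓ Cfsg.oddCore X : Subgroup X) : Set X) := by
        rw [h]; exact hl
      exact (Subgroup.mem_centralizer_iff.mp hl'.2 a ha).symm
    · exfalso
      apply hPnO
      rw [← hperfP, Subgroup.commutator_le]
      intro x hx y hy
      exact h x (hPC hx) y (hPL hy)
  have hnt : Nontrivial ↥L := ⟨⟨⟨p, hPL hp⟩, 1, fun h => hp1 (congrArg Subtype.val h)⟩⟩
  apply Cfsg.Agent.H27.quasisimple_of_normal_central (Subgroup.isPerfect_iff.mpr hLperf)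
  intro W hWn hWtop
  have hW'L : W.map L.subtype ≤ L := Subgroup.map_subtype_le W
  have hW'n : ∀ l ∈ L, ∀ x ∈ W.map L.subtype, l * x * l⁻¹ ∈ W.map L.subtype := by
    rintro l hl _ ⟨x, hx, rfl⟩
    exact ⟨⟨l, hl⟩ * x * ⟨l, hl⟩⁻¹, hWn.conj_mem x hx ⟨l, hl⟩, rfl⟩
  rcases key _ hW'L hW'n with h | h
  · exfalso
    apply hWtop
    rw [eq_top_iff]
    intro x _
    have hx' : (x : X) ∈ W.map L.subtype := by rw [h]; exact x.2
    obtain ⟨y, hy, hyx⟩ := hx'
    have : y = x := Subtype.ext hyx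
    rwa [← this]
  · have h1 : ⁅W.map L.subtype, L⁆ ≤ L ⊓ Cfsg.oddCore X := by
      rw [Subgroup.commutator_le]
      intro x hx l hl
      refine ⟨?_, h x hx l hl⟩
      rw [commutatorElement_def]
      exact L.mul_mem (L.mul_mem (L.mul_mem (hW'L hx) hl) (L.inv_mem (hW'L hx))) (L.inv_mem hl)
    have h2 : ⁅⁅W.map L.subtype, L⁆, L⁆ = ⊥ := by
      rw [eq_bot_iff]
      refine le_trans (Subgroup.commutator_mono h1 le_rfl) ?_
      rw [le_bot_iff]
      apply Cfsg.Agent.H27.comm_eq_bot_of_forall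
      intro a ha b hb
      exact (hLO a ha b hb).symm
    have h3 := Cfsg.Agent.H27.comm_eq_bot_of_perfect L _ hLperf h2
    intro x hx
    rw [Subgroup.mem_center_iff]
    intro l
    apply Subtype.ext
    exact Cfsg.Agent.H27.comm_of_comm_eq_bot h3 l.2 ⟨x, hx, rfl⟩

end Cfsg.Agent.H58
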